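import Cfsg.Agent.FT.CohFeit
import Cfsg.Agent.S0157

/-!
A simple group with a regular nilpotent TI-subgroup which is not a `p`-group is doubly transitive.
-/

set_option autoImplicit false

namespace Cfsg.Lib.Ito

open Cfsg Cfsg.Lib.FT
open scoped ComplexConjugate

variable {G : Type*} [Group G] [Finite G] [IsSimpleGroup G] {H N : Subgroup G}

theorem eq_one_of_irr_top {χ : G → ℂ} (hχ : χ ∈ Irr (⊤ : Subgroup G)) (h1 : χ ≠ cf1 ⊤) {g : G}
    (hg : χ g = χ 1) : g = 1 :=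
  (mem_Irr_top.1 hχ).eq_one_of_apply_eq_of_isSimpleGroup (by rwa [cf1_top] at h1) hg

section

variable (frob : IsFrobKer N H) {ν : (G → ℂ) →ₗ[ℂ] (G → ℂ)}
  (hν : CoherentWith N ⊤ (seqIndD H N H ⊥) {1}ᶜ (ind N ⊤) ν)
include frob hν

omit [IsSimpleGroup G] in
theorem nu_dirr {φ : G → ℂ} (hφ : φ ∈ seqIndD H N H ⊥) : ν φ ∈ Dirr (⊤ : Subgroup G) :=
  vchar_norm1 (hν.vc _ (mem_ZS hφ)) (by
    rw [hν.iso _ (mem_ZS hφ) _ (mem_ZS hφ), dot_irr_self (frob.seqIndD_irr le_rfl hφ)])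

omit [IsSimpleGroup G] in
theorem nu_pivot {φ ψ : G → ℂ} (hφ : φ ∈ seqIndD H N H ⊥) (hψ : ψ ∈ seqIndD H N H ⊥) :
    φ 1 • ν ψ - ψ 1 • ν φ = ind N ⊤ (φ 1 • ψ - ψ 1 • φ) := by
  rw [← hν.eq _ (pivot_mem_ZSon (mem_ZS hφ) (mem_ZS hψ)
    (irr_char (frob.seqIndD_irr le_rfl hφ)).exists_int
    (irr_char (frob.seqIndD_irr le_rfl hψ)).exists_int), map_sub, map_smul, map_smul]

omit [IsSimpleGroup G] in
theorem nu_dot {φ ψ χ : G → ℂ} (hφ : φ ∈ seqIndD H N H ⊥) (hψ : ψ ∈ seqIndD H N H ⊥)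
    (hχ : χ ∈ CF (⊤ : Subgroup G)) :
    φ 1 * dot ⊤ (ν ψ) χ - ψ 1 * dot ⊤ (ν φ) χ =
      φ 1 * dot N ψ (res N χ) - ψ 1 * dot N φ (res N χ) := by
  have h := congrArg (fun α => dot ⊤ α χ) (nu_pivot frob hν hφ hψ)
  simp only [dot_ind_left le_top _ hχ, dot_sub_left, dot_smul_left] at h
  exact h

omit [IsSimpleGroup G] in
theorem nu_one {φ ψ : G → ℂ} (hφ : φ ∈ seqIndD H N H ⊥) (hψ : ψ ∈ seqIndD H N H ⊥) :
    φ 1 * ν ψ 1 = ψ 1 * ν φ 1 := by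
  have h := congrFun (nu_pivot frob hν hφ hψ) 1
  rw [ind_one le_top] at h
  simp only [Pi.sub_apply, Pi.smul_apply, smul_eq_mul] at h
  linear_combination h

/-- A non-exceptional character has large degree. -/
theorem le_deg_of_ortho {φ₁ χ : G → ℂ} (h₁ : φ₁ ∈ seqIndD H N H ⊥) (e₁ : φ₁ 1 = H.relIndex N)
    (hχ : χ ∈ Irr (⊤ : Subgroup G)) (hχ1 : χ ≠ cf1 ⊤)
    (ho : ∀ φ ∈ seqIndD H N H ⊥, dot ⊤ (ν φ) χ = 0) : Nat.card H - 1 ≤ deg χ := by
  classical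
  have hirr := frob.seqIndD_irr (M := ⊥) le_rfl
  have hr : IsChar N (res N χ) := (irr_char hχ).res le_top
  obtain ⟨c, hc⟩ := isChar_iff_exists_coeff.1 hr
  have hc' : ∀ φ ∈ Irr N, dot N φ (res N χ) = c φ := fun φ hφ => by
    rw [(irr_char hφ).dot_comm hr, hc, (irr_orthoN N).dot_sum_smul _ hφ]
  have key : ∀ φ ∈ seqIndD H N H ⊥, H.relIndex N * c φ = deg φ * c φ₁ := fun φ hφ => by
    have h := nu_dot frob hν h₁ hφ (irr_cf hχ)
    rw [ho φ hφ, ho φ₁ h₁, hc' φ (hirr hφ), hc' φ₁ (hirr h₁), e₁, irr_deg_eq (hirr hφ)] at h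
    exact_mod_cast (by linear_combination -h : (H.relIndex N : ℂ) * c φ = deg φ * c φ₁)
  have he := relIndex_pos H N
  have hm : c φ₁ ≠ 0 := fun h0 => by
    have h2 : H ≤ cfker N (res N χ) := by
      refine (hr.le_cfker_iff_constt frob.normal.le).2 fun ξ hξ => ?_
      obtain ⟨hξ1, hξ2⟩ := mem_irrConstt.1 hξ
      by_contra hk
      have h3 := key ξ ((frob.mem_seqIndD_iff frob.normal le_rfl ξ).2 ⟨hξ1, hk⟩)
      rw [h0, mul_zero, mul_eq_zero] at h3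
      rw [← (irr_char hξ1).dot_comm hr, hc' ξ hξ1, h3.resolve_left he.ne', Nat.cast_zero] at hξ2
      exact hξ2 rfl
    refine frob.ne_bot (le_bot_iff.1 fun x hx => Subgroup.mem_bot.2 ?_)
    refine eq_one_of_irr_top hχ hχ1 ?_
    have := cfker1 (h2 hx)
    rwa [res_of_mem _ (frob.normal.le hx), res_one] at this
  have hd : deg χ = ∑ φ ∈ Irr N, c φ * deg φ := by
    have h := congrFun hc 1
    rw [res_one, irr_deg_eq hχ, Finset.sum_apply, Finset.sum_congr rfl fun φ hφ => by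
      rw [Pi.smul_apply, smul_eq_mul, irr_deg_eq hφ]] at h
    exact_mod_cast h
  have hs := sum_seqIndD_deg_sq frob.normal frob.normal.norm (norms1 N) le_rfl bot_le hirr
  rw [Subgroup.relIndex_bot_left] at hs
  refine Nat.le_of_mul_le_mul_left ?_ he
  rw [← hs, hd, Finset.mul_sum]
  refine le_trans (Finset.sum_le_sum fun φ hφ => ?_)
    (Finset.sum_le_sum_of_subset (f := fun φ => H.relIndex N * (c φ * deg φ)) hirr)
  rw [← mul_assoc, key φ hφ, sq, mul_right_comm]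
  exact Nat.le_mul_of_pos_right _ (Nat.pos_of_ne_zero hm)

omit hν in
theorem false_of_small {A : Subgroup G} (hA : A ⊲ N) (hA1 : A ≠ ⊥) {φ₁ φ₂ χ : G → ℂ}
    (h₁ : φ₁ ∈ seqIndD H N H ⊥) (hk : A ≤ cfker N φ₁) (e₁ : φ₁ 1 = H.relIndex N)
    (h₂ : φ₂ ∈ seqIndD H N H ⊥) (hχ : χ ∈ Irr (⊤ : Subgroup G)) (hχ1 : χ ≠ cf1 ⊤)
    (hd : deg χ ≤ H.relIndex N) (h : dot N φ₁ (res N χ) - dot N φ₂ (res N χ) = 1) : False := by
  have hirr := frob.seqIndD_irr (M := ⊥) le_rfl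
  have hr : IsChar N (res N χ) := (irr_char hχ).res le_top
  have h3 : φ₁ ∈ irrConstt N (res N χ) := by
    refine mem_irrConstt.2 ⟨hirr h₁, fun h0 => ?_⟩
    obtain ⟨n, hn⟩ := (irr_char (hirr h₂)).dot_nat hr
    rw [(irr_char (hirr h₁)).dot_comm hr, h0, hn] at h
    have : ((n + 1 : ℕ) : ℂ) = 0 := by push_cast; linear_combination -h
    exact Nat.succ_ne_zero n (Nat.cast_eq_zero.1 this)
  have h4 := hr.deg_constt_le h3
  have h5 : deg (res N χ) = deg χ := deg_eq_of (by rw [res_one, irr_deg_eq hχ])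
  have h6 : res N χ = φ₁ := hr.eq_of_constt_of_deg h3 (by
    rw [res_one, irr_deg_eq hχ, e₁, le_antisymm hd (by rwa [h5, deg_eq_of e₁] at h4)])
  refine hA1 (le_bot_iff.1 fun x hx => Subgroup.mem_bot.2 (eq_one_of_irr_top hχ hχ1 ?_))
  have := cfker1 (hk hx)
  rwa [← h6, res_of_mem _ (hA.le hx), res_one] at this

theorem irr_of_const {A : Subgroup G} (hA : A ⊲ N) (hA1 : A ≠ ⊥) {φ₁ φ₂ σ : G → ℂ}
    (h₁ : φ₁ ∈ seqIndD H N H ⊥) (hk : A ≤ cfker N φ₁) (e₁ : φ₁ 1 = H.relIndex N)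
    (h₂ : φ₂ ∈ seqIndD H N H ⊥) (e₂ : φ₂ 1 = H.relIndex N) (hne : φ₁ ≠ φ₂)
    (hσ : IsChar ⊤ σ) (hσ1 : dot ⊤ σ (cf1 ⊤) = 0) (hdeg : σ 1 = (Nat.card H - 1 : ℕ))
    (hc : ∀ x ∈ H, x ≠ 1 → σ x = -1) : σ ∈ Irr (⊤ : Subgroup G) := by
  classical
  have hirr := frob.seqIndD_irr (M := ⊥) le_rfl
  have hne1 : ∀ χ, dot ⊤ σ χ ≠ 0 → χ ≠ cf1 ⊤ := fun χ h e => h (e ▸ hσ1)
  by_cases hcase : ∃ χ ∈ irrConstt ⊤ σ, ∀ φ ∈ seqIndD H N H ⊥, dot ⊤ (ν φ) χ = 0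
  · obtain ⟨χ, hχ, ho⟩ := hcase
    obtain ⟨hχ1, hχ2⟩ := mem_irrConstt.1 hχ
    have h3 := le_deg_of_ortho frob hν h₁ e₁ hχ1 (hne1 χ hχ2) ho
    have h4 := hσ.deg_constt_le hχ
    rw [deg_eq_of hdeg] at h4
    rw [hσ.eq_of_constt_of_deg hχ (by rw [hdeg, irr_deg_eq hχ1, le_antisymm h3 h4])]
    exact hχ1
  exfalso
  push Not at hcase
  have hD := fun φ (hφ : φ ∈ seqIndD H N H ⊥) => nu_dirr frob hν hφ
  have hiso : ∀ φ ∈ seqIndD H N H ⊥, ∀ ψ ∈ seqIndD H N H ⊥,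
      dot ⊤ (ν φ) (ν ψ) = if φ = ψ then 1 else 0 := fun φ hφ ψ hψ => by
    rw [hν.iso _ (mem_ZS hφ) _ (mem_ZS hψ), dot_irr (hirr hφ) (hirr hψ)]
  have hsum : σ = ∑ φ ∈ seqIndD H N H ⊥, dot ⊤ σ (ν φ) • ν φ := by
    refine cfun_ext_dot hσ.cf (Submodule.sum_mem _ fun φ hφ =>
      Submodule.smul_mem _ _ (dirr_cf (hD φ hφ))) fun χ hχ => ?_
    rw [dot_sum_left]
    simp only [dot_smul_left]
    by_cases h : ∃ ψ ∈ seqIndD H N H ⊥, dot ⊤ (ν ψ) χ ≠ 0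
    · obtain ⟨ψ, hψ, h⟩ := h
      have key : ∑ φ ∈ seqIndD H N H ⊥, dot ⊤ σ (ν φ) * dot ⊤ (ν φ) (ν ψ) = dot ⊤ σ (ν ψ) := by
        rw [Finset.sum_congr rfl fun φ hφ => by rw [hiso φ hφ ψ hψ]]
        simp [hψ]
      rcases dirr_eq_or_eq_neg_of_dot_ne_zero (hD ψ hψ) (irr_dirr hχ) h with e | e
      · rw [← e, key]
      · have e' : χ = -ν ψ := by rw [e, neg_neg]
        rw [e']
        simp only [dot_neg_right, mul_neg, Finset.sum_neg_distrib, key]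
    · push Not at h
      rw [Finset.sum_eq_zero fun φ hφ => by rw [h φ hφ, mul_zero]]
      by_contra h0
      obtain ⟨φ, hφ, h1⟩ := hcase χ (mem_irrConstt.2 ⟨hχ, h0⟩)
      exact h1 (h φ hφ)
  have he := relIndexC_ne_zero H N
  have hH : (Nat.card H - 1 : ℕ) ≠ 0 := by
    have := (Subgroup.one_lt_card_iff_ne_bot H).2 frob.ne_bot
    omega
  have hprop : ∀ φ ∈ seqIndD H N H ⊥, ∀ ψ ∈ seqIndD H N H ⊥,
      φ 1 * dot ⊤ σ (ν ψ) = ψ 1 * dot ⊤ σ (ν φ) := fun φ hφ ψ hψ => by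
    have h := nu_dot frob hν hφ hψ hσ.cf
    have hz := pivot_mem_ZSon (mem_ZS hφ) (mem_ZS hψ) (irr_char (hirr hφ)).exists_int
      (irr_char (hirr hψ)).exists_int
    have h0 := dot_congr_of_supp (H := N) (ψ := res N σ) (ψ' := -cf1 N)
      (zcharD1_seqInd_on frob.normal (seqIndD_subT _ _ _ _) hz).2 fun x hx => by
        rw [res_of_mem _ (frob.normal.le hx.1), hc x hx.1 hx.2, Pi.neg_apply,
          cf1_of_mem (frob.normal.le hx.1)]
    simp only [dot_sub_left, dot_smul_left, dot_neg_right,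
      seqInd_ortho_1 frob.normal le_rfl hφ, seqInd_ortho_1 frob.normal le_rfl hψ] at h0
    rw [vchar_dot_comm hσ.vchar (dirr_vchar (hD ψ hψ)),
      vchar_dot_comm hσ.vchar (dirr_vchar (hD φ hφ))]
    linear_combination h + h0
  have hprod : ∀ ψ ∈ seqIndD H N H ⊥, ψ 1 = H.relIndex N →
      dot ⊤ σ (ν ψ) * ν ψ 1 = H.relIndex N := fun ψ hψ eψ => by
    have h := congrFun hsum 1
    rw [Finset.sum_apply, hdeg] at h
    have hs := sum_seqIndD_deg_sq frob.normal frob.normal.norm (norms1 N) le_rfl bot_le hirr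
    rw [Subgroup.relIndex_bot_left] at hs
    have h2 : (H.relIndex N : ℂ) ^ 2 * (Nat.card H - 1 : ℕ) =
        dot ⊤ σ (ν ψ) * ν ψ 1 * (H.relIndex N * (Nat.card H - 1 : ℕ)) := by
      rw [← Nat.cast_mul, ← hs, h, Nat.cast_sum, Finset.mul_sum, Finset.mul_sum]
      refine Finset.sum_congr rfl fun φ hφ => ?_
      have h3 := hprop ψ hψ φ hφ
      have h4 := nu_one frob hν hψ hφ
      rw [eψ, irr_deg_eq (hirr hφ)] at h3 h4
      rw [Pi.smul_apply, smul_eq_mul, Nat.cast_pow]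
      calc (H.relIndex N : ℂ) ^ 2 * (dot ⊤ σ (ν φ) * ν φ 1) =
          (H.relIndex N * dot ⊤ σ (ν φ)) * (H.relIndex N * ν φ 1) := by ring
        _ = _ := by rw [h3, h4]; ring
    have h3 : ((Nat.card H - 1 : ℕ) : ℂ) ≠ 0 := Nat.cast_ne_zero.2 hH
    refine mul_right_cancel₀ (mul_ne_zero he h3) ?_
    rw [← h2]
    ring
  have hsmall : ∀ χ ∈ Irr (⊤ : Subgroup G), dot ⊤ σ χ * χ 1 = H.relIndex N →
      χ ≠ cf1 ⊤ ∧ deg χ ≤ H.relIndex N := fun χ hχ h => by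
    refine ⟨hne1 χ fun h0 => he (by rw [← h, h0, zero_mul]), ?_⟩
    obtain ⟨n, hn⟩ := hσ.dot_nat (irr_char hχ)
    rw [hn, irr_deg_eq hχ] at h
    have h' : n * deg χ = H.relIndex N := by exact_mod_cast h
    exact Nat.le_of_dvd (relIndex_pos H N) ⟨n, by rw [← h', mul_comm]⟩
  have hd := fun χ (hχ : χ ∈ Irr (⊤ : Subgroup G)) => nu_dot frob hν h₂ h₁ (irr_cf hχ)
  have h11 := hiso φ₁ h₁ φ₁ h₁
  have h12 := hiso φ₁ h₁ φ₂ h₂
  have h21 := hiso φ₂ h₂ φ₁ h₁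
  have h22 := hiso φ₂ h₂ φ₂ h₂
  rw [if_pos rfl] at h11 h22
  rw [if_neg hne] at h12
  rw [if_neg hne.symm] at h21
  obtain ⟨χ₁, hχ₁, e1 | e1⟩ := dirrP.1 (hD φ₁ h₁)
  · obtain ⟨h3, h4⟩ := hsmall χ₁ hχ₁ (e1 ▸ hprod φ₁ h₁ e₁)
    refine false_of_small frob hA hA1 h₁ hk e₁ h₂ hχ₁ h3 h4 (mul_left_cancel₀ he ?_)
    have := hd χ₁ hχ₁
    rw [← e1, h11, h21, e₁, e₂, e1] at this
    linear_combination -this
  obtain ⟨χ₂, hχ₂, e2 | e2⟩ := dirrP.1 (hD φ₂ h₂)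
  · have h3 := nu_one frob hν h₁ h₂
    rw [e₁, e₂, e1, e2, Pi.neg_apply, irr_deg_eq hχ₁, irr_deg_eq hχ₂] at h3
    have h4 : ((deg χ₁ + deg χ₂ : ℕ) : ℂ) = 0 := by
      push_cast
      exact mul_left_cancel₀ he (by linear_combination h3)
    have := irr_deg_pos hχ₁
    have := Nat.cast_eq_zero.1 h4
    omega
  · have h5 := hprod φ₂ h₂ e₂
    rw [e2, dot_neg_right, Pi.neg_apply, neg_mul_neg] at h5
    obtain ⟨h3, h4⟩ := hsmall χ₂ hχ₂ h5
    refine false_of_small frob hA hA1 h₁ hk e₁ h₂ hχ₂ h3 h4 (mul_left_cancel₀ he ?_)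
    have e2' : χ₂ = -ν φ₂ := by rw [e2, neg_neg]
    have := hd χ₂ hχ₂
    rw [e₁, e₂] at this
    conv_lhs at this => rw [e2', dot_neg_right, dot_neg_right, h12, h22]
    linear_combination -this

end

/-- Double transitivity from a regular nilpotent TI-subgroup which is not of prime power order. -/
theorem two_trans_of_regular (frob : IsFrobKer N H) (nilH : Group.IsNilpotent H)
    (ti : NormedTI (sharp H) ⊤ N) (hnp : ∀ p : ℕ, p.Prime → ¬ IsPGroup p H)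
    (X : Type*) [MulAction G X] [Finite X] [MulAction.IsPretransitive G X]
    (hX : Nat.card X = Nat.card H) (hfix : ∀ x ∈ H, x ≠ 1 → ∀ a : X, x • a ≠ a) :
    MulAction.IsMultiplyPretransitive G X 2 := by
  classical
  have := Fintype.ofFinite G
  have hH := (Subgroup.one_lt_card_iff_ne_bot H).2 frob.ne_bot
  obtain ⟨ν, hν⟩ := (feit_coherence frob nilH (normedTI_isoTo_seqInd frob.normal ti
    (seqIndD_subT _ _ _ _))).resolve_right fun ⟨p, hp, h, _⟩ => hnp p hp h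
  obtain ⟨p, hp, hd⟩ := Nat.exists_prime_and_dvd hH.ne'
  have := Fact.mk hp
  have hpr := nilpotent_pcoreC {p} nilH
  have hA : piCoreOf {p} H ⊲ N := pcore_normal_trans _ frob.normal
  have hB : piCoreOf ({p}ᶜ : Set ℕ) H ⊲ N := pcore_normal_trans _ frob.normal
  have hAH : piCoreOf {p} H < H := lt_of_le_of_ne (pcore_sub _ _) fun e =>
    hnp p hp (by rw [← e]; exact pcore_isPGroup p H)
  have hBH : piCoreOf ({p}ᶜ : Set ℕ) H < H := lt_of_le_of_ne (pcore_sub _ _) fun e => by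
    have h1 := (p'group_iff_coprime hp).1 (pcore_pgroup ({p}ᶜ : Set ℕ) H)
    rw [e] at h1
    exact hp.one_lt.ne' (Nat.Coprime.eq_one_of_dvd h1.symm hd)
  have hA1 : piCoreOf {p} H ≠ ⊥ := fun e => hBH.ne (by
    have := hpr.sup
    rwa [e, bot_sup_eq] at this)
  have sol := nilpotent_sol nilH
  obtain ⟨φ₁, h₁, e₁⟩ := exists_linInd frob.normal sol hAH (frob.normal.le.trans hA.norm)
  obtain ⟨φ₂, h₂, e₂⟩ := exists_linInd frob.normal sol hBH (frob.normal.le.trans hB.norm)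
  have k₁ := (mem_seqIndD_iff_cfker frob.normal frob.normal.norm hA.norm le_rfl hAH.le).1 h₁
  have k₂ := (mem_seqIndD_iff_cfker frob.normal frob.normal.norm hB.norm le_rfl hBH.le).1 h₂
  have hne : φ₁ ≠ φ₂ := fun e => k₁.2.2 (hpr.sup.ge.trans (sup_le k₁.2.1 (e ▸ k₂.2.1)))
  have hX2 : 2 ≤ Nat.card X := hX ▸ hH
  rw [← Cfsg.Agent.S0157.result X hX2, ← mem_Irr_top]
  have hπ := Char.isCharacter_card_fixedBy G X
  have h1 : classInner (fun g : G => (Nat.card (MulAction.fixedBy X g) : ℂ)) (fun _ => 1) = 1 := by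
    rw [Cfsg.Agent.S0157.inner_one X]
    have hnt : Nontrivial X := Finite.one_lt_card_iff_nontrivial.1 hX2
    have : Nat.card (MulAction.orbitRel.Quotient G X) = 1 := by
      rw [Nat.card_eq_one_iff_unique]
      exact ⟨(MulAction.pretransitive_iff_subsingleton_quotient G X).1 inferInstance,
        ⟨Quotient.mk'' (Classical.arbitrary X)⟩⟩
    rw [this, Nat.cast_one]
  refine irr_of_const frob hν hA hA1 (seqInd_sub le_rfl h₁) k₁.2.1 e₁ (seqInd_sub le_rfl h₂) e₂ hne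
    (isChar_top.2 (hπ.sub_of_classInner_ne_zero Char.isIrrCharacter_one
      (by rw [h1]; exact one_ne_zero))) ?_ ?_ fun x hx hx1 => ?_
  · rw [dot_top_eq_classInner, cf1_top]
    have := Char.classInner_sub_left (fun g : G => (Nat.card (MulAction.fixedBy X g) : ℂ))
      (fun _ => 1) (fun _ => 1)
    rw [h1, Char.classInner_one_one, sub_self] at this
    exact this
  · simp only [MulAction.fixedBy_one_eq_univ, Nat.card_univ, hX]
    rw [Nat.cast_sub hH.le, Nat.cast_one]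
  · have : IsEmpty (MulAction.fixedBy X x) := ⟨fun a => hfix x hx hx1 a a.2⟩
    simp

end Cfsg.Lib.Ito
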